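import Cfsg.Agent.Lib.ChevTori.Main
import Cfsg.Agent.Lib.Classical.Spectra.Ppd

/-!
The centralizer of an element of order `ℓ` is cyclic of order `Φ_d(q)` and self-centralizing.
-/

set_option autoImplicit false
set_option linter.unusedSectionVars false

namespace Cfsg.Agent.Lib.ChevTori.Final

open Polynomial Matrix
open Cfsg Cfsg.Lie Cfsg.Agent.Lib.ChevBN.Elem Cfsg.Agent.Lib.ChevBN.Entries Cfsg.Agent.Lib.ChevBN.Table
open Cfsg.Agent.Lib.ChevBN.Collect Cfsg.Agent.Lib.ChevBN.Rel Cfsg.Agent.Lib.ChevBN.Torus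
open Cfsg.Agent.Lib.ChevBN.Monomial Cfsg.Agent.Lib.ChevBN.Core Cfsg.Agent.Lib.ChevBN.Pair
open Cfsg.Agent.Lib.ChevBN.Stmts Cfsg.Agent.Lib.ChevBN.BruhatForm Cfsg.Agent.Lib.ChevBN.Opp
open Cfsg.Agent.Lib.ChevTri.Level Cfsg.Agent.Lib.ChevTri.Datum
open Cfsg.Agent.Lib.BNPair.Basic Cfsg.Agent.Lib.BNPair.Parabolic
open Cfsg.Agent.Lib.ChevOrder.BNCount Cfsg.Agent.Lib.ChevOrder.Chev
open Cfsg.Agent.Lib.ChevOrder.TorusCard Cfsg.Agent.Lib.ChevBN.Levi
open Cfsg.Agent.Lib.ChevTori.Act Cfsg.Agent.Lib.ChevTori.LinAlg Cfsg.Agent.Lib.ChevTori.Stab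
open Cfsg.Agent.Lib.ChevFix Cfsg.Agent.Lib.ChevTori.Core Cfsg.Agent.Lib.ChevTori.Main
open Cfsg.Agent.Lib.Classical.Spectra.Ppd

section Ac

variable {l d q : ℕ} {K : Type*} [Field K] [Finite K] {M : Matrix (Fin l) (Fin l) ℤ}

theorem det_natAbs (hchar : M.charpoly = cyclotomic d ℤ) :
    (M - (q : ℤ) • 1).det.natAbs = phi d q := by
  have h1 : (cyclotomic d ℤ).eval (q : ℤ) = ((q : ℤ) • (1 : Matrix (Fin l) (Fin l) ℤ) - M).det := by
    rw [← hchar, Matrix.eval_charpoly]
    congr 1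
    ext i j
    simp [Matrix.scalar_apply, Matrix.one_apply, Matrix.diagonal_apply]
  have h2 : M - (q : ℤ) • 1 = -((q : ℤ) • (1 : Matrix (Fin l) (Fin l) ℤ) - M) := by
    rw [neg_sub]
  rw [h2, Matrix.det_neg, phi, h1, Int.natAbs_mul]
  have h3 : (((-1 : ℤ) ^ Fintype.card (Fin l))).natAbs = 1 := by
    rw [Int.natAbs_pow]
    simp
  rw [h3, one_mul]

theorem phi_dvd (hd2 : 2 < d) (hq : 2 ≤ q) : phi d q ∣ q ^ d - 1 := by
  have h1 : (cyclotomic d ℤ).eval (q : ℤ) ∣ (q : ℤ) ^ d - 1 := by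
    have := Polynomial.eval_dvd (x := (q : ℤ)) (cyclotomic.dvd_X_pow_sub_one d ℤ)
    simpa using this
  have h2 : (((q ^ d - 1 : ℕ)) : ℤ) = (q : ℤ) ^ d - 1 := by
    have : 1 ≤ q ^ d := Nat.one_le_pow _ _ (by omega)
    push_cast [this]
    ring
  rw [← h2] at h1
  have := Int.natAbs_dvd_natAbs.mpr h1
  simpa [phi] using this

theorem phi_pos (hd2 : 2 < d) : 0 < phi d q := by
  rw [phi, Int.natAbs_pos]
  exact (cyclotomic_pos hd2 _).ne'

theorem card_units_eq {Q : ℕ} (hK : Nat.card K = Q) : Nat.card Kˣ = Q - 1 := by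
  rw [Nat.card_units, hK]

/-- The order of the kernel. -/
theorem card_Ac (hd2 : 2 < d) (hq : 2 ≤ q) (hK : Nat.card K = q ^ d)
    (hchar : M.charpoly = cyclotomic d ℤ) :
    Nat.card (actM (μ := Kˣ) (M - (q : ℤ) • 1)).ker = phi d q := by
  have hdn := det_natAbs (q := q) hchar
  have hdet : (M - (q : ℤ) • 1).det ≠ 0 := by
    intro h0
    rw [h0] at hdn
    have := phi_pos (q := q) hd2
    simp at hdn
    omega
  rw [card_ker_eq hdet (by
    rw [hdn, card_units_eq hK]
    exact phi_dvd hd2 hq), hdn]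

/-- The kernel is cyclic. -/
theorem cyclic_Ac (hd2 : 2 < d) (hq : 2 ≤ q) (hK : Nat.card K = q ^ d)
    (hchar : M.charpoly = cyclotomic d ℤ) :
    IsCyclic (actM (μ := Kˣ) (M - (q : ℤ) • 1)).ker := by
  classical
  set A := (actM (μ := Kˣ) (M - (q : ℤ) • 1)).ker with hA
  haveI : Finite A := inferInstance
  apply isCyclic_of_prime_torsion
  intro s hs
  haveI hsf : Fact s.Prime := ⟨hs⟩
  set T := (powMonoidHom s : A →* A).ker with hT
  have hmemT : ∀ τ : T, ((τ : A) : Fin l → Kˣ) ^ s = 1 := by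
    intro τ
    have h1 : (τ : A) ^ s = 1 := τ.2
    exact congrArg Subtype.val h1
  have hmemA : ∀ τ : T, actM M ((τ : A) : Fin l → Kˣ) = ((τ : A) : Fin l → Kˣ) ^ q :=
    fun τ => (mem_ker_sub _ _ _).1 (τ : A).2
  by_cases hsd : s ∣ d
  · -- `s` divides `d`
    have hPT : IsPGroup s T := by
      intro τ
      refine ⟨1, ?_⟩
      apply Subtype.ext
      rw [pow_one]
      exact τ.2
    obtain ⟨k, hk⟩ := IsPGroup.iff_card.mp hPT
    have hdv : Nat.card T ∣ phi d q := by
      have h1 := Subgroup.card_subgroup_dvd_card T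
      have h2 : Nat.card A = phi d q := card_Ac hd2 hq hK hchar
      rwa [h2] at h1
    rw [hk] at hdv ⊢
    by_cases hk2 : 2 ≤ k
    · exfalso
      have h3 : s ^ 2 ∣ phi d q := (pow_dvd_pow s hk2).trans hdv
      have h4 : s ∣ phi d q := (dvd_pow_self s (by norm_num)).trans h3
      exact not_sq_dvd hs hd2 hq h4 hsd h3
    · have hk1 : k ≤ 1 := by omega
      calc s ^ k ≤ s ^ 1 := Nat.pow_le_pow_right hs.pos hk1
        _ = s := pow_one s
  · -- `s` does not divide `d`
    by_cases hsK : s ∣ Nat.card Kˣ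
    · obtain ⟨ξ, hξ⟩ := exists_prime_orderOf_dvd_card' s hsK
      have hlog : ∀ a : Kˣ, a ^ s = 1 → ∃ k : ℤ, ξ ^ k = a := by
        intro a ha
        have hprimξ : IsPrimitiveRoot ξ s := by
          rw [← hξ]
          exact IsPrimitiveRoot.orderOf ξ
        haveI : NeZero s := ⟨hs.ne_zero⟩
        have h1 : a ∈ Subgroup.zpowers ξ := by
          rw [hprimξ.zpowers_eq, mem_rootsOfUnity]
          exact ha
        exact Subgroup.mem_zpowers_iff.mp h1
      have hlog2 : ∀ τ : T, ∃ k : Fin l → ℤ, ((τ : A) : Fin l → Kˣ) = fun j => ξ ^ k j := by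
        intro τ
        have h1 : ∀ j, ∃ k : ℤ, ξ ^ k = ((τ : A) : Fin l → Kˣ) j := fun j =>
          hlog _ (by
            have := congrFun (hmemT τ) j
            simpa using this)
        choose k hk using h1
        exact ⟨k, by funext j; exact (hk j).symm⟩
      choose k hk using hlog2
      let φ : T → {a : Fin l → ZMod s //
          (M.map (Int.castRingHom (ZMod s))) *ᵥ a = ((q : ℤ) : ZMod s) • a} := fun τ =>
        ⟨red s (k τ), by
          have h1 := hmemA τ
          rw [hk τ, actM_zpow, pow_fun_zpow, fun_zpow_eq_iff hξ, red_mulVec, red_smul_eq] at h1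
          exact h1⟩
      have hφ : Function.Injective φ := by
        intro τ τ' h
        have h1 : red s (k τ) = red s (k τ') := congrArg Subtype.val h
        apply Subtype.ext
        apply Subtype.ext
        rw [hk τ, hk τ', (fun_zpow_eq_iff hξ _ _).2 h1]
      exact (Nat.card_le_card_of_injective φ hφ).trans (card_eigen_le hsd hchar _)
    · -- no torsion at all
      have hsub : Subsingleton T := by
        constructor
        intro τ τ'
        have hone : ∀ τ : T, τ = 1 := by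
          intro τ
          apply Subtype.ext
          apply Subtype.ext
          funext j
          have h1 : (((τ : A) : Fin l → Kˣ) j) ^ s = 1 := by
            have := congrFun (hmemT τ) j
            simpa using this
          have h2 := orderOf_dvd_of_pow_eq_one h1
          have h3 := orderOf_dvd_natCard (((τ : A) : Fin l → Kˣ) j)
          have h4 : orderOf (((τ : A) : Fin l → Kˣ) j) = 1 := by
            rcases (Nat.dvd_prime hs).mp h2 with h5 | h5
            · exact h5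
            · rw [h5] at h3
              exact absurd h3 hsK
          exact orderOf_eq_one_iff.mp h4
        rw [hone τ, hone τ']
      calc Nat.card T = 1 := Nat.card_unique
        _ ≤ s := hs.one_lt.le

end Ac

section Index

theorem geom_mul (Q e : ℕ) (hQ : 1 ≤ Q) : Q ^ e - 1 = (Q - 1) * ∑ i ∈ Finset.range e, Q ^ i := by
  have h1 : 1 ≤ Q ^ e := Nat.one_le_pow _ _ hQ
  zify [h1, hQ]
  rw [mul_geom_sum]

theorem prod_degs (Q : ℕ) (hQ : 1 ≤ Q) (degs : List ℕ) :
    (degs.map fun e => Q ^ e - 1).prod =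
      (Q - 1) ^ degs.length * (degs.map fun e => ∑ i ∈ Finset.range e, Q ^ i).prod := by
  induction degs with
  | nil => simp
  | cons e l ih =>
    simp only [List.map_cons, List.prod_cons, List.length_cons, ih, geom_mul Q e hQ]
    ring

theorem not_dvd_geom {ℓ Q e : ℕ} [hℓ : Fact ℓ.Prime] (hQ : 1 ≤ Q) (h : ℓ ∣ Q - 1) (he : ¬ ℓ ∣ e) :
    ¬ ℓ ∣ ∑ i ∈ Finset.range e, Q ^ i := by
  have h1 : (Q : ZMod ℓ) = 1 := by
    have h2 : ((Q - 1 : ℕ) : ZMod ℓ) = 0 := (ZMod.natCast_eq_zero_iff _ _).2 h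
    rw [Nat.cast_sub hQ, Nat.cast_one, sub_eq_zero] at h2
    exact h2
  rw [← ZMod.natCast_eq_zero_iff]
  push_cast
  simp only [h1, one_pow, Finset.sum_const, Finset.card_range, nsmul_eq_mul, mul_one]
  rwa [ZMod.natCast_eq_zero_iff]

variable {D : ChevalleyDatum} {K : Type*} [Field K] [Finite K] {η : ℕ → ℕ → ℤ}
variable (hR : Sys D K η) (hT : Tbl D)

include hR hT in
theorem card_H (hU : Unimod D) : Nat.card (D.diagonalSubgroup K) = (Nat.card K - 1) ^ D.rank := by
  have h := Nat.card_congr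
    (Equiv.ofBijective (tmap hT hR) ⟨tmap_injective hR hT hU, tmap_surj hT hR⟩)
  rw [← h, Nat.card_fun, Nat.card_units, Nat.card_fin]

include hR hT in
/-- The index of the torus is prime to `ℓ`. -/
theorem not_dvd_index (hU : Unimod D) {Q m : ℕ} {degs : List ℕ} (hlen : degs.length = D.rank)
    (hQ : Nat.card K = Q)
    (hord : Nat.card (D.group K) = Q ^ m * (degs.map fun e => Q ^ e - 1).prod)
    {ℓ : ℕ} [hℓ : Fact ℓ.Prime] (hℓQ : ℓ ∣ Q - 1) (hdegs : ∀ e ∈ degs, ¬ ℓ ∣ e) :
    ¬ ℓ ∣ ((D.diagonalSubgroup K).subgroupOf (D.group K)).index := by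
  have hQ2 : 2 ≤ Q := by
    rw [← hQ]
    exact Finite.one_lt_card
  have hle : D.diagonalSubgroup K ≤ D.group K := H_le_G hR hT
  have h1 := Subgroup.card_mul_index ((D.diagonalSubgroup K).subgroupOf (D.group K))
  have h2 : Nat.card ((D.diagonalSubgroup K).subgroupOf (D.group K)) =
      Nat.card (D.diagonalSubgroup K) :=
    Nat.card_congr (Subgroup.subgroupOfEquivOfLe hle).toEquiv
  rw [h2, card_H hR hT hU, hQ, hord, prod_degs Q (by omega), hlen] at h1
  have h3 : (Q - 1) ^ D.rank ≠ 0 := pow_ne_zero _ (by omega)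
  have h4 : ((D.diagonalSubgroup K).subgroupOf (D.group K)).index =
      Q ^ m * (degs.map fun e => ∑ i ∈ Finset.range e, Q ^ i).prod := by
    apply Nat.eq_of_mul_eq_mul_left (Nat.pos_of_ne_zero h3)
    rw [h1]
    ring
  rw [h4]
  intro h5
  rcases (Nat.Prime.dvd_mul hℓ.out).1 h5 with h6 | h6
  · have h7 := hℓ.out.dvd_of_dvd_pow h6
    have h8 : ℓ ∣ Q - (Q - 1) := Nat.dvd_sub h7 hℓQ
    have h9 : Q - (Q - 1) = 1 := by omega
    rw [h9] at h8
    exact hℓ.out.one_lt.ne' (Nat.dvd_one.mp h8)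
  · have hP : Prime ℓ := hℓ.out.prime
    obtain ⟨a, ha, h7⟩ := (Prime.dvd_prod_iff hP).1 h6
    obtain ⟨e, he, rfl⟩ := List.mem_map.mp ha
    exact not_dvd_geom (by omega) hℓQ (hdegs e he) h7

end Index

section Main

variable {D : ChevalleyDatum} {F K : Type*} [Field F] [Field K] [Finite F] [Finite K] [Algebra F K]
variable {η : ℕ → ℕ → ℤ}

theorem range_of_fix {q : ℕ} (hF : Nat.card F = q) {t : K} (ht : t ^ q = t) :
    ∃ s : F, algebraMap F K s = t := by
  classical
  haveI := Fintype.ofFinite F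
  haveI := Fintype.ofFinite K
  have hq : 2 ≤ q := by
    rw [← hF]
    exact Finite.one_lt_card
  have hq1 : 1 < q := by omega
  have hne : (Polynomial.X ^ q - Polynomial.X : K[X]) ≠ 0 :=
    FiniteField.X_pow_card_sub_X_ne_zero K hq1
  set S := (Polynomial.X ^ q - Polynomial.X : K[X]).roots.toFinset with hS
  have hcard : S.card ≤ q := by
    calc S.card ≤ Multiset.card (Polynomial.X ^ q - Polynomial.X : K[X]).roots :=
          Multiset.toFinset_card_le _
      _ ≤ (Polynomial.X ^ q - Polynomial.X : K[X]).natDegree := Polynomial.card_roots' _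
      _ = q := FiniteField.X_pow_card_sub_X_natDegree_eq K hq1
  have hmem : ∀ a : K, a ∈ S ↔ a ^ q = a := by
    intro a
    rw [hS, Multiset.mem_toFinset, mem_roots hne, IsRoot.def]
    simp [sub_eq_zero]
  set I := (Finset.univ : Finset F).image (algebraMap F K) with hI
  have hIc : I.card = q := by
    rw [hI, Finset.card_image_of_injective _ (algebraMap F K).injective, Finset.card_univ,
      ← Nat.card_eq_fintype_card, hF]
  have hsub : I ⊆ S := by
    intro a ha
    obtain ⟨s, -, rfl⟩ := Finset.mem_image.mp ha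
    rw [hmem, ← map_pow]
    congr 1
    rw [← hF, Nat.card_eq_fintype_card]
    exact FiniteField.pow_card s
  have heq : I = S := Finset.eq_of_subset_of_card_le hsub (by omega)
  have h1 : t ∈ I := by
    rw [heq, hmem]
    exact ht
  obtain ⟨s, -, hs⟩ := Finset.mem_image.mp h1
  exact ⟨s, hs⟩

/-- The main theorem. -/
theorem final_core (hRF : Sys D F η) (hR : Sys D K η) (hT : Tbl D) (hU : Unimod D) {q d m m' : ℕ}
    (degs : List ℕ) (hlen : degs.length = D.rank) (hF : Nat.card F = q) (hK : Nat.card K = q ^ d)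
    (hd2 : 2 < d) (hφ : d.totient = D.rank) {ℓ : ℕ} (hℓ : ℓ.Prime)
    (hprim : IsPrimitiveRoot (q : ZMod ℓ) d)
    (hordF : Nat.card (D.group F) = q ^ m * (degs.map fun e => q ^ e - 1).prod)
    (hordK : Nat.card (D.group K) = (q ^ d) ^ m' * (degs.map fun e => (q ^ d) ^ e - 1).prod)
    (hddeg : ∃ e ∈ degs, d ∣ e) (hdegs : ∀ e ∈ degs, ¬ ℓ ∣ e) :
    ∃ H : Subgroup ↥(D.group F), IsCyclic ↥H ∧ Nat.card ↥H = phi d q ∧
      Subgroup.centralizer (H : Set ↥(D.group F)) = H := by
  classical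
  haveI hℓf : Fact ℓ.Prime := ⟨hℓ⟩
  haveI : Fintype F := Fintype.ofFinite F
  have hq : 2 ≤ q := by
    rw [← hF]
    exact Finite.one_lt_card
  have hdvdpow : ∀ e, d ∣ e → ℓ ∣ q ^ e - 1 := by
    intro e he
    have h1 : (q : ZMod ℓ) ^ e = 1 := (hprim.pow_eq_one_iff_dvd e).2 he
    rw [← ZMod.natCast_eq_zero_iff, Nat.cast_sub (Nat.one_le_pow _ _ (by omega))]
    push_cast
    rw [h1, sub_self]
  have hℓQ : ℓ ∣ q ^ d - 1 := hdvdpow d dvd_rfl
  -- an element of order `ℓ`
  have hℓG : ℓ ∣ Nat.card (D.group F) := by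
    obtain ⟨e, he, hde⟩ := hddeg
    rw [hordF]
    apply Dvd.dvd.mul_left
    exact (hdvdpow e hde).trans (List.dvd_prod (List.mem_map.mpr ⟨e, he, rfl⟩))
  obtain ⟨x, hx⟩ := exists_prime_orderOf_dvd_card' ℓ hℓG
  -- the Frobenius map
  have hcardF : Fintype.card F = q := by
    rw [← Nat.card_eq_fintype_card, hF]
  let σ : K →+* K := ((FiniteField.frobeniusAlgHom F K : K →ₐ[F] K) : K →+* K)
  have hσ : ∀ a : K, σ a = a ^ q := by
    intro a
    show (FiniteField.frobeniusAlgHom F K) a = a ^ q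
    rw [FiniteField.coe_frobeniusAlgHom, hcardF]
  have hfix : ∀ a : F, σ (algebraMap F K a) = algebraMap F K a := fun a =>
    (FiniteField.frobeniusAlgHom F K).commutes a
  have hrange : ∀ t, σ t = t → ∃ s, algebraMap F K s = t := fun t ht =>
    range_of_fix hF (by rw [← hσ]; exact ht)
  have hprim' : IsPrimitiveRoot (((q : ℕ) : ℤ) : ZMod ℓ) d := by
    simpa using hprim
  have hℓK : ℓ ∣ Nat.card Kˣ := by
    rw [Nat.card_units, hK]
    exact hℓQ
  have hind := not_dvd_index hR hT hU hlen hK hordK hℓQ hdegs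
  obtain ⟨M, hchar, ⟨e⟩⟩ := exists_centralizer hRF hR hT (algebraMap F K) σ hU hσ hfix hrange
    (by omega) hφ hprim' hℓK hind x hx
  have hcyc : IsCyclic ↥(Subgroup.centralizer ({x} : Set ↥(D.group F))) :=
    haveI := cyclic_Ac (K := K) hd2 hq hK hchar
    isCyclic_of_surjective e.symm e.symm.surjective
  refine ⟨Subgroup.centralizer ({x} : Set ↥(D.group F)), hcyc, ?_, ?_⟩
  · rw [Nat.card_congr e.toEquiv]
    exact card_Ac hd2 hq hK hchar
  · have hxmem : x ∈ Subgroup.centralizer ({x} : Set ↥(D.group F)) := by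
      rw [Subgroup.mem_centralizer_iff]
      intro h hh
      rw [Set.mem_singleton_iff] at hh
      rw [hh]
    apply le_antisymm
    · intro z hz
      rw [Subgroup.mem_centralizer_iff] at hz ⊢
      intro h hh
      rw [Set.mem_singleton_iff] at hh
      rw [hh]
      exact hz x hxmem
    · intro z hz
      rw [Subgroup.mem_centralizer_iff]
      intro h hh
      letI := @IsCyclic.commGroup _ _ hcyc
      have h1 := mul_comm (⟨h, hh⟩ : ↥(Subgroup.centralizer ({x} : Set ↥(D.group F)))) ⟨z, hz⟩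
      exact congrArg Subtype.val h1

end Main

/-- The main theorem, with the extension field chosen. -/
theorem final {D : ChevalleyDatum} {F : Type*} [Field F] [Finite F] {η : ℕ → ℕ → ℤ}
    (hRF : Sys D F η) (hsys : ∀ (L : Type) [Field L], Sys D L η) (hT : Tbl D) (hU : Unimod D)
    {q d m m' : ℕ} (degs : List ℕ) (hlen : degs.length = D.rank) (hF : Nat.card F = q)
    (hd2 : 2 < d) (hφ : d.totient = D.rank) {ℓ : ℕ} (hℓ : ℓ.Prime)
    (hprim : IsPrimitiveRoot (q : ZMod ℓ) d)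
    (hordF : Nat.card (D.group F) = q ^ m * (degs.map fun e => q ^ e - 1).prod)
    (hordK : ∀ (L : Type) [Field L] [Finite L], Nat.card L = q ^ d →
      Nat.card (D.group L) = (q ^ d) ^ m' * (degs.map fun e => (q ^ d) ^ e - 1).prod)
    (hddeg : ∃ e ∈ degs, d ∣ e) (hdegs : ∀ e ∈ degs, ¬ ℓ ∣ e) :
    ∃ H : Subgroup ↥(D.group F), IsCyclic ↥H ∧ Nat.card ↥H = phi d q ∧
      Subgroup.centralizer (H : Set ↥(D.group F)) = H := by
  obtain ⟨p, hp⟩ := CharP.exists F
  haveI : Fact p.Prime := ⟨CharP.char_is_prime F p⟩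
  haveI : NeZero d := ⟨by omega⟩
  have hK : Nat.card (FiniteField.Extension F p d) = q ^ d := by
    rw [FiniteField.natCard_extension, hF]
  exact final_core hRF (hsys (FiniteField.Extension F p d)) hT hU degs hlen hF hK hd2 hφ hℓ hprim
    hordF (hordK _ hK) hddeg hdegs

/-- Primes exist in all cases but `q = 2`. -/
theorem exists_ell {d q : ℕ} (hd : 2 < d) (hq : 2 ≤ q)
    (h2 : ∃ ℓ : ℕ, ℓ.Prime ∧ IsPrimitiveRoot ((2 : ℕ) : ZMod ℓ) d) :
    ∃ ℓ : ℕ, ℓ.Prime ∧ IsPrimitiveRoot (q : ZMod ℓ) d := by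
  rcases Nat.lt_or_ge q 3 with h | h
  · have : q = 2 := by omega
    rw [this]
    exact h2
  · exact exists_ppd hd h

end Cfsg.Agent.Lib.ChevTori.Final
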