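import Cfsg.Agent.Lib.ChevTori.Core
import Cfsg.Agent.Lib.ChevBN.ConjH

/-!
The centralizer of an element of prime order `ℓ` of a Chevalley group over a finite field with
`q` elements, where `q` has order `d` modulo `ℓ` and `φ(d)` is the rank: passing to the field with
`q ^ d` elements, the element lies in a conjugate of the torus, and the Frobenius map acts on that
torus through a Weyl group element with characteristic polynomial `Φ_d`.
-/

set_option autoImplicit false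
set_option linter.unusedSectionVars false

namespace Cfsg.Agent.Lib.ChevTori.Main

open Polynomial Matrix
open Cfsg Cfsg.Lie Cfsg.Agent.Lib.ChevBN.Elem Cfsg.Agent.Lib.ChevBN.Entries Cfsg.Agent.Lib.ChevBN.Table
open Cfsg.Agent.Lib.ChevBN.Collect Cfsg.Agent.Lib.ChevBN.Rel Cfsg.Agent.Lib.ChevBN.Torus
open Cfsg.Agent.Lib.ChevBN.Monomial Cfsg.Agent.Lib.ChevBN.Core Cfsg.Agent.Lib.ChevBN.Pair
open Cfsg.Agent.Lib.ChevBN.Stmts Cfsg.Agent.Lib.ChevBN.BruhatForm Cfsg.Agent.Lib.ChevBN.Opp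
open Cfsg.Agent.Lib.ChevTri.Level Cfsg.Agent.Lib.ChevTri.Datum
open Cfsg.Agent.Lib.BNPair.Basic Cfsg.Agent.Lib.BNPair.Parabolic
open Cfsg.Agent.Lib.ChevOrder.BNCount Cfsg.Agent.Lib.ChevOrder.Chev
open Cfsg.Agent.Lib.ChevOrder.TorusCard Cfsg.Agent.Lib.ChevBN.Levi
open Cfsg.Agent.Lib.BNPair.CoxeterExchange Cfsg.Agent.Lib.StChar.Top
open Cfsg.Agent.Lib.ChevTori.Act Cfsg.Agent.Lib.ChevTori.LinAlg Cfsg.Agent.Lib.ChevTori.Stab
open Cfsg.Agent.Lib.ChevFix Cfsg.Agent.Lib.ChevTori.Core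

/-- An element of prime order is conjugate into a subgroup of index prime to the order. -/
theorem exists_conj_mem {G : Type*} [Group G] [Finite G] (H : Subgroup G) {ℓ : ℕ} [Fact ℓ.Prime]
    (hind : ¬ ℓ ∣ H.index) {x : G} (hx : x ^ ℓ = 1) : ∃ g : G, g⁻¹ * x * g ∈ H := by
  have hP : IsPGroup ℓ (Subgroup.zpowers x) := by
    rintro ⟨g, hg⟩
    obtain ⟨m, rfl⟩ := Subgroup.mem_zpowers_iff.mp hg
    refine ⟨1, ?_⟩
    apply Subtype.ext
    simp only [pow_one, Subgroup.coe_pow, Subgroup.coe_one]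
    rw [← zpow_natCast, ← _root_.zpow_mul, mul_comm, _root_.zpow_mul, zpow_natCast, hx, _root_.one_zpow]
  obtain ⟨a, ha⟩ := hP.nonempty_fixed_point_of_prime_not_dvd_card (G ⧸ H) (by
    rwa [← Subgroup.index_eq_card])
  induction a using QuotientGroup.induction_on with
  | H g =>
    refine ⟨g, ?_⟩
    have h1 := ha ⟨x, Subgroup.mem_zpowers x⟩
    have h2 : ((x * g : G) : G ⧸ H) = (g : G ⧸ H) := h1
    rw [QuotientGroup.eq] at h2
    have h3 := Subgroup.inv_mem _ h2
    have e : (g⁻¹ * x * g) = ((x * g)⁻¹ * g)⁻¹ := by group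
    rw [e]
    exact h3

/-- The Weyl group order divides the index of the torus. -/
theorem card_W_dvd {D : ChevalleyDatum} {K : Type*} [Field K] {η : ℕ → ℕ → ℤ} (hR : Sys D K η)
    (hT : Tbl D) :
    Nat.card (WW (pair hR hT)) ∣ ((D.diagonalSubgroup K).subgroupOf (D.group K)).index := by
  have e : (pair hR hT).B ⊓ (pair hR hT).N = (D.diagonalSubgroup K).subgroupOf (D.group K) := by
    ext z
    rw [Subgroup.mem_inf, mem_PB, mem_PN, Subgroup.mem_subgroupOf, ← B_inf_N hR hT]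
    rfl
  rw [← e]
  have h1 : Nat.card (WW (pair hR hT)) = ((pair hR hT).B ⊓ (pair hR hT).N).relIndex (pair hR hT).N :=
    rfl
  rw [h1, ← Subgroup.relIndex_mul_index (inf_le_right : (pair hR hT).B ⊓ (pair hR hT).N ≤ _)]
  exact Dvd.intro _ rfl

section Frob

variable {D : ChevalleyDatum} {F K : Type*} [Field F] [Field K] {η : ℕ → ℕ → ℤ}
variable (hRF : Sys D F η) (hR : Sys D K η) (hT : Tbl D)
variable (ι : F →+* K) (σ : K →+* K) {q : ℕ}

theorem mp_hP (c : ℕ → K) : mp σ (hP hR c) = hP hR (fun j => σ (c j)) := by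
  simp only [hP, map_list_prod, List.map_map]
  congr 1
  apply List.map_congr_left
  intro j _
  simp [mp_hG σ hR.toAddRel hR.toAddRel]

theorem mp_tmap (hσ : ∀ a, σ a = a ^ q) (c : Fin D.rank → Kˣ) :
    mp σ (tmap hT hR c : GL D.Idx K) = (tmap hT hR c : GL D.Idx K) ^ q := by
  have h1 : (tmap hT hR c : GL D.Idx K) ^ q = (tmap hT hR (c ^ q) : GL D.Idx K) := by
    rw [map_pow]
    rfl
  rw [h1]
  show mp σ (hP hR (Cfsg.Agent.Lib.ChevOrder.TorusCard.ext c)) =
    hP hR (Cfsg.Agent.Lib.ChevOrder.TorusCard.ext (c ^ q))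
  rw [mp_hP]
  congr 1
  funext j
  simp only [Cfsg.Agent.Lib.ChevOrder.TorusCard.ext]
  split_ifs
  · rw [hσ]
    simp
  · simp

theorem mp_comp_fix (hfix : ∀ a, σ (ι a) = ι a) (x : GL D.Idx F) : mp σ (mp ι x) = mp ι x := by
  apply Units.ext
  ext a b
  simp [coe_mp, hfix]

/-- The multiplicative description of the kernel. -/
theorem actM_sub {l : ℕ} {μ : Type*} [CommGroup μ] (M : Matrix (Fin l) (Fin l) ℤ) (c : Fin l → μ)
    (n : ℕ) : actM (M - (n : ℤ) • 1) c = actM M c / c ^ n := by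
  funext i
  rw [actM_apply, Pi.div_apply, actM_apply]
  have h1 : (c ^ n) i = ∏ j, c j ^ (((n : ℤ) • (1 : Matrix (Fin l) (Fin l) ℤ)) i j) := by
    rw [Finset.prod_eq_single i]
    · simp
    · intro b _ hb
      simp [Matrix.one_apply, Ne.symm hb]
    · simp
  rw [h1, ← Finset.prod_div_distrib]
  apply Finset.prod_congr rfl
  intro j _
  rw [Matrix.sub_apply, _root_.zpow_sub, div_eq_mul_inv]

theorem mem_ker_sub {l : ℕ} {μ : Type*} [CommGroup μ] (M : Matrix (Fin l) (Fin l) ℤ) (c : Fin l → μ)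
    (n : ℕ) : c ∈ (actM (μ := μ) (M - (n : ℤ) • 1)).ker ↔ actM M c = c ^ n := by
  rw [MonoidHom.mem_ker, actM_sub, div_eq_one]

include hRF hR hT in
/-- The centralizer of an element of order `ℓ`. -/
theorem exists_centralizer [Finite F] [Finite K] (hU : Unimod D)
    (hσ : ∀ a, σ a = a ^ q) (hfix : ∀ a, σ (ι a) = ι a) (hrange : ∀ t, σ t = t → ∃ s, ι s = t)
    {ℓ d : ℕ} [hℓ : Fact ℓ.Prime] (hd : 0 < d) (hφ : d.totient = D.rank)
    (hprim : IsPrimitiveRoot ((q : ℤ) : ZMod ℓ) d) (hℓK : ℓ ∣ Nat.card Kˣ)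
    (hind : ¬ ℓ ∣ ((D.diagonalSubgroup K).subgroupOf (D.group K)).index)
    (x : ↥(D.group F)) (hx : orderOf x = ℓ) :
    ∃ M : Matrix (Fin D.rank) (Fin D.rank) ℤ, M.charpoly = cyclotomic d ℤ ∧
      Nonempty (↥(Subgroup.centralizer ({x} : Set ↥(D.group F))) ≃*
        ↥(actM (μ := Kˣ) (M - (q : ℤ) • 1)).ker) := by
  classical
  haveI : Finite (GL D.Idx K) := inferInstance
  -- the element over the big field
  set x₀ : GL D.Idx K := mp ι (x : GL D.Idx F) with hx₀
  have hx₀G : x₀ ∈ D.group K := mp_group ι x.2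
  have hxpow : (⟨x₀, hx₀G⟩ : ↥(D.group K)) ^ ℓ = 1 := by
    apply Subtype.ext
    show x₀ ^ ℓ = 1
    rw [hx₀, ← map_pow, ← Subgroup.coe_pow, ← hx, pow_orderOf_eq_one]
    simp
  obtain ⟨⟨g, hg⟩, hgH⟩ := exists_conj_mem ((D.diagonalSubgroup K).subgroupOf (D.group K)) hind hxpow
  have hgH' : g⁻¹ * x₀ * g ∈ D.diagonalSubgroup K := Subgroup.mem_subgroupOf.mp hgH
  obtain ⟨c, hc⟩ := tmap_surj' hR hT hgH'
  set t : GL D.Idx K := (tmap hT hR c : GL D.Idx K) with ht
  have htH : t ∈ D.diagonalSubgroup K := (tmap hT hR c).2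
  have hσt : mp σ t = t ^ q := mp_tmap hR hT σ hσ c
  have hσx : mp σ x₀ = x₀ := mp_comp_fix ι σ hfix _
  set y : GL D.Idx K := g⁻¹ * mp σ g with hy
  have hyG : y ∈ D.group K := Subgroup.mul_mem _ (Subgroup.inv_mem _ hg) (mp_group σ hg)
  have ey : y⁻¹ * t * y = t ^ q := by
    rw [← hσt, hc, map_mul, map_mul, map_inv, hσx, hy]
    group
  obtain ⟨n₀, hn₀, en⟩ := Cfsg.Agent.Lib.ChevBN.ConjH.conj_in_N hR hT htH
    (Subgroup.pow_mem _ htH q) (Subgroup.inv_mem _ hyG) (by rw [inv_inv]; exact ey)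
  let n : ↥(pair hR hT).N := ⟨⟨n₀, N_le_G hR hT hn₀⟩, (mem_PN hR hT).2 hn₀⟩
  set w₀ : WW (pair hR hT) := QuotientGroup.mk n with hw₀
  set M := matW hR hT w₀ with hM
  have hconj : ∀ c' : Fin D.rank → Kˣ, n₀ * (tmap hT hR c' : GL D.Idx K) * n₀⁻¹ =
      (tmap hT hR (actM M c') : GL D.Idx K) := fun c' => conj_tmap hR hT n c'
  have hinj := tmap_injective hR hT hU
  have hcM : actM M c = c ^ q := by
    apply hinj
    apply Subtype.ext
    rw [← hconj, en, map_pow]
    rfl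
  -- `c` has order `ℓ`
  have hcℓ : c ^ ℓ = 1 := by
    apply hinj
    apply Subtype.ext
    rw [map_pow, map_one]
    show (tmap hT hR c : GL D.Idx K) ^ ℓ = 1
    rw [← ht, hc]
    have h1 : x₀ ^ ℓ = 1 := congrArg Subtype.val hxpow
    have e : g⁻¹ * x₀ * g = (MulAut.conj g⁻¹).toMonoidHom x₀ := by
      simp [MulAut.conj_apply]
    rw [e, ← map_pow, h1, map_one]
  have hc1 : c ≠ 1 := by
    intro h1
    have h2 : t = 1 := by
      rw [ht, h1, map_one]
      rfl
    rw [h2] at hc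
    have h3 : x₀ = 1 := by
      have : g⁻¹ * x₀ * g = 1 := hc.symm
      have e : x₀ = g * (g⁻¹ * x₀ * g) * g⁻¹ := by group
      rw [e, this]
      group
    have h4 : (x : GL D.Idx F) = 1 := by
      apply mp_injective ι
      rw [← hx₀, h3, map_one]
    have h5 : x = 1 := Subtype.ext h4
    rw [h5, orderOf_one] at hx
    exact hℓ.out.one_lt.ne hx
  -- discrete logarithm
  obtain ⟨ξ, hξ⟩ := exists_prime_orderOf_dvd_card' ℓ hℓK
  have hlog : ∀ a : Kˣ, a ^ ℓ = 1 → ∃ k : ℤ, ξ ^ k = a := by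
    intro a ha
    have hprimξ : IsPrimitiveRoot ξ ℓ := by
      rw [← hξ]
      exact IsPrimitiveRoot.orderOf ξ
    haveI : NeZero ℓ := ⟨hℓ.out.ne_zero⟩
    have h1 : a ∈ Subgroup.zpowers ξ := by
      rw [hprimξ.zpowers_eq, mem_rootsOfUnity]
      exact ha
    exact Subgroup.mem_zpowers_iff.mp h1
  choose b hb using fun j => hlog (c j) (by
    have := congrFun hcℓ j
    simpa using this)
  have hcb : c = fun j => ξ ^ b j := by
    funext j
    exact (hb j).symm
  have hb0 : red ℓ b ≠ 0 := by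
    intro h0
    apply hc1
    rw [hcb]
    have h1 : (fun j => ξ ^ b j) = (fun j => ξ ^ (0 : Fin D.rank → ℤ) j) := by
      rw [fun_zpow_eq_iff hξ, h0]
      funext i
      simp [red]
    rw [h1]
    funext j
    simp
  have hℓW : ¬ ℓ ∣ Nat.card (WW (pair hR hT)) := fun h1 => hind (h1.trans (card_W_dvd hR hT))
  obtain ⟨hchar, hfixW⟩ := kcore hR hT hℓW hd hφ hprim hξ hb0 w₀ (by rw [← hcb]; exact hcM)
  rw [← hcb] at hfixW
  refine ⟨M, hchar, ?_⟩
  -- the centralizer of `t`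
  have hcent : ∀ {z : GL D.Idx K}, z ∈ D.group K → t * z * t⁻¹ = z → z ∈ D.diagonalSubgroup K :=
    fun hz h1 => mem_H_of_comm hR hT hU c hfixW hz h1
  have hyn : y * n₀ ∈ D.diagonalSubgroup K := by
    apply hcent (Subgroup.mul_mem _ hyG (N_le_G hR hT hn₀))
    have h1 : y⁻¹ * t * y = n₀ * t * n₀⁻¹ := by rw [ey, en]
    have e1 : t * (y * n₀) = y * (y⁻¹ * t * y) * n₀ := by group
    rw [e1, h1]
    group
  have hconjH : ∀ s ∈ D.diagonalSubgroup K, y⁻¹ * s * y = n₀ * s * n₀⁻¹ := by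
    intro s hs
    have h1 := H_comm hR hT hyn hs
    have e1 : y = (y * n₀) * n₀⁻¹ := by group
    have e2 : y⁻¹ * s * y = n₀ * ((y * n₀)⁻¹ * s * (y * n₀)) * n₀⁻¹ := by group
    rw [e2, mul_assoc (y * n₀)⁻¹, ← h1]
    group
  -- the two maps
  let f : ↥(D.group F) →* GL D.Idx K := (mp ι).comp (D.group F).subtype
  have hf : Function.Injective f := (mp_injective ι).comp Subtype.val_injective
  let f' : (Fin D.rank → Kˣ) →* GL D.Idx K :=
    (MulAut.conj g).toMonoidHom.comp ((D.diagonalSubgroup K).subtype.comp (tmap hT hR))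
  have hf' : Function.Injective f' := by
    intro a a' h
    apply hinj
    apply Subtype.ext
    exact (MulAut.conj g).injective h
  have hf'a : ∀ a, f' a = g * (tmap hT hR a : GL D.Idx K) * g⁻¹ := fun a => rfl
  have hxt : x₀ = g * t * g⁻¹ := by
    rw [hc]
    group
  have hmain : (Subgroup.centralizer ({x} : Set ↥(D.group F))).map f =
      (actM (μ := Kˣ) (M - (q : ℤ) • 1)).ker.map f' := by
    apply le_antisymm
    · rintro _ ⟨z, hz, rfl⟩
      have hz1 : z * x = x * z := by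
        have := Subgroup.mem_centralizer_iff.mp hz x (by simp)
        exact this.symm
      set z₀ : GL D.Idx K := mp ι (z : GL D.Idx F) with hz₀
      have hz₀G : z₀ ∈ D.group K := mp_group ι z.2
      have hz₀x : z₀ * x₀ = x₀ * z₀ := by
        have := congrArg (fun u : ↥(D.group F) => mp ι (u : GL D.Idx F)) hz1
        simpa [map_mul] using this
      have hσz : mp σ z₀ = z₀ := mp_comp_fix ι σ hfix _
      have hmem : g⁻¹ * z₀ * g ∈ D.diagonalSubgroup K := by
        apply hcent (Subgroup.mul_mem _ (Subgroup.mul_mem _ (Subgroup.inv_mem _ hg) hz₀G) hg)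
        rw [hc]
        have e2 : g⁻¹ * x₀ * g * (g⁻¹ * z₀ * g) = g⁻¹ * (x₀ * z₀) * g := by group
        rw [e2, ← hz₀x]
        group
      obtain ⟨a, ha⟩ := tmap_surj' hR hT hmem
      have hqa : actM M a = a ^ q := by
        apply hinj
        apply Subtype.ext
        rw [← hconj, ha, map_pow]
        have e3 : ((tmap hT hR a ^ q : ↥(D.diagonalSubgroup K)) : GL D.Idx K) =
            (tmap hT hR a : GL D.Idx K) ^ q := rfl
        rw [e3, ← mp_tmap hR hT σ hσ a, ha, ← hconjH _ hmem, map_mul, map_mul, map_inv, hσz, hy]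
        group
      refine ⟨a, (mem_ker_sub _ _ _).2 hqa, ?_⟩
      show f' a = f z
      rw [hf'a, ha]
      show g * (g⁻¹ * z₀ * g) * g⁻¹ = z₀
      group
    · rintro _ ⟨a, ha, rfl⟩
      have hqa := (mem_ker_sub _ _ _).1 ha
      have haH : (tmap hT hR a : GL D.Idx K) ∈ D.diagonalSubgroup K := (tmap hT hR a).2
      have hmem : f' a ∈ D.group K := by
        rw [hf'a]
        exact Subgroup.mul_mem _ (Subgroup.mul_mem _ hg (H_le_G hR hT haH)) (Subgroup.inv_mem _ hg)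
      have hfixa : mp σ (f' a) = f' a := by
        rw [hf'a, map_mul, map_mul, map_inv, mp_tmap hR hT σ hσ a]
        have e1 : (tmap hT hR a : GL D.Idx K) ^ q = (tmap hT hR (actM M a) : GL D.Idx K) := by
          rw [hqa, map_pow]
          rfl
        rw [e1, ← hconj, ← hconjH _ haH]
        have e2 : mp σ g = g * y := by
          rw [hy]
          group
        rw [e2]
        group
      obtain ⟨z₁, hz₁, hz₂⟩ := fixed_mem hR hT hRF.toAddRel ι σ hrange hU hmem hfixa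
      refine ⟨⟨z₁, hz₁⟩, SetLike.mem_coe.2 (Subgroup.mem_centralizer_iff.2 ?_), hz₂⟩
      intro h hh
      rw [Set.mem_singleton_iff] at hh
      rw [hh]
      apply hf
      show f (x * ⟨z₁, hz₁⟩) = f (⟨z₁, hz₁⟩ * x)
      rw [map_mul, map_mul]
      have e4 : f ⟨z₁, hz₁⟩ = f' a := hz₂
      have e5 : f x = x₀ := rfl
      rw [e4, e5, hf'a, hxt]
      have e6 : t * (tmap hT hR a : GL D.Idx K) = (tmap hT hR a : GL D.Idx K) * t :=
        H_comm hR hT htH haH
      calc g * t * g⁻¹ * (g * (tmap hT hR a : GL D.Idx K) * g⁻¹)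
          = g * (t * (tmap hT hR a : GL D.Idx K)) * g⁻¹ := by group
        _ = g * ((tmap hT hR a : GL D.Idx K) * t) * g⁻¹ := by rw [e6]
        _ = _ := by group
  exact ⟨((Subgroup.centralizer ({x} : Set ↥(D.group F))).equivMapOfInjective f hf).trans
    ((MulEquiv.subgroupCongr hmain).trans
      (((actM (μ := Kˣ) (M - (q : ℤ) • 1)).ker).equivMapOfInjective f' hf').symm)⟩

end Frob

end Cfsg.Agent.Lib.ChevTori.Main
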